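import Cfsg.Agent.H257.Cov.Star
import Cfsg.Agent.H305.SepJ3
import Cfsg.Agent.S2475
import Cfsg.Agent.H419.Spor.JModel

/-!
# S2499 (normal 2-coverings): `J₃` (orders 19, 17, 12) (helper348)
-/

set_option autoImplicit false

namespace Cfsg.Agent.H348.Cov.JThree

open Subgroup Cfsg Cfsg.Agent.OrdDiv Cfsg.Agent.H278.Cov Cfsg.Agent.H257.El Cfsg.Agent.H257.Cov

universe u

/-! ### element orders of `PSL₂(q)` -/

theorem psl2_ord {q p k : ℕ} (hp : p.Prime) (hq : q = p ^ k) (h4 : 4 ≤ q) {X : Type u} [Group X]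
    (h : Real (.psl 2 q) X) :
    Set.range (orderOf : X → ℕ) = {m : ℕ | m ∣ p ∨ m ∣ (q - 1) / Nat.gcd 2 (q - 1) ∨ m ∣ (q + 1) / Nat.gcd 2 (q - 1)} := by
  obtain ⟨F, _, _, hF, ⟨e⟩⟩ := h
  obtain ⟨p', hp'⟩ := CharP.exists F
  obtain ⟨n, hpr, hc⟩ := FiniteField.card F p'
  have hpp : p' = p := by
    rw [hF, hq] at hc
    have h1 : p' ∣ p ^ k := by rw [hc]; exact dvd_pow_self _ n.ne_zero
    exact (Nat.prime_dvd_prime_iff_eq hpr hp).1 (hpr.dvd_of_dvd_pow h1)
  subst hpp
  have : Fact p'.Prime := ⟨hp⟩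
  have h2 := Cfsg.Agent.S2475.result (F := F) p' (by rw [hF]; exact h4)
  rw [hF] at h2
  rw [← h2]
  ext m
  constructor
  · rintro ⟨x, rfl⟩
    exact ⟨e x, e.orderOf_eq x⟩
  · rintro ⟨x, rfl⟩
    exact ⟨e.symm x, e.symm.orderOf_eq x⟩

theorem no_of_mod {q p k m : ℕ} (hp : p.Prime) (hq : q = p ^ k) (h4 : 4 ≤ q)
    (hm : (p % m != 0 && (q - 1) / Nat.gcd 2 (q - 1) % m != 0 && (q + 1) / Nat.gcd 2 (q - 1) % m != 0) = true)
    {X : Type u} [Group X] (h : Real (.psl 2 q) X) (x : X) : orderOf x ≠ m := by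
  intro hx
  have h1 : m ∈ Set.range (orderOf : X → ℕ) := ⟨x, hx⟩
  rw [psl2_ord hp hq h4 h] at h1
  simp only [Bool.and_eq_true, bne_iff_ne, ne_eq] at hm
  obtain ⟨⟨a, b⟩, c⟩ := hm
  rcases h1 with h1 | h1 | h1
  · exact a (Nat.mod_eq_zero_of_dvd h1)
  · exact b (Nat.mod_eq_zero_of_dvd h1)
  · exact c (Nat.mod_eq_zero_of_dvd h1)

/-! ### `J₃` -/

def n : ℕ := 50232960
def l : List (ℕ × ℕ) := [(2, 7), (3, 5), (5, 1), (17, 1), (19, 1)]

theorem chk19_17 : chkF n l 19 17 [] = true := by decide +kernel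
theorem chk19_12 : chkI n l 19 12 [.psl 2 19] = true := by decide +kernel
theorem ok17_12 : okM n l 17 12 = true := by decide +kernel
theorem surv17 : ((surv n l 17 []).all fun g => g = .psl 2 16 || g = .psl 2 17) = true := by decide +kernel

section

variable {T : Type u} [Group T]

theorem exists_ord (h : Spor.IsoJ3 T) : ∃ g : T, orderOf g = 12 := by
  obtain ⟨F, _, _, ω, hF, hω, ⟨e⟩⟩ := h
  have hI : Spor.IsoJ3 (Spor.J3 F ω) := ⟨F, _, _, ω, hF, hω, ⟨MulEquiv.refl _⟩⟩
  obtain ⟨-, z, Q, v, ρ, n, u, D⟩ := KFacts.J3.exists_facts hI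
  have hfin : Finite (Spor.J3 F ω) := Nat.finite_of_card_ne_zero (by rw [D.card_K]; norm_num)
  obtain ⟨g, hg⟩ := Cfsg.Agent.H419.Spor.JModel.exists_orders' D.model 12 (by simp)
  exact ⟨e.symm g, (e.symm.orderOf_eq g).trans hg⟩

theorem isol17 (h : Spor.IsoJ3 T) : Isol T 17 :=
  isol_of_cent (by norm_num) fun _ hx => (Cfsg.Agent.H898.J3Cent.seventeen h hx).1

theorem isol19 (h : Spor.IsoJ3 T) : Isol T 19 :=
  isol_of_cent (by norm_num) fun _ hx => Cfsg.Agent.H898.J3Cent.card_nineteen h hx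

theorem card (h : Spor.IsoJ3 T) : Nat.card T = n := (Cfsg.Agent.H898.J3Cent.base h).2.1

variable [Finite T]

theorem oinc_seventeen (tab : OrderTable.{u}) (known : Known.{u}) (h : Spor.IsoJ3 T) : OInc T 17 12 := by
  intro R hR x hx y hy hxr hym
  have hr : Nat.Prime 17 := by norm_num
  have hiso := isol17 h
  have hn := card h
  have hrR : 17 ∣ Nat.card R := by
    rw [← hxr, ← Subgroup.orderOf_mk x hx]
    exact _root_.orderOf_dvd_natCard _
  have hrm : ∀ s : ℕ, s.Prime → s ∣ 12 → 17 ≠ s := by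
    rintro s - hsm rfl
    norm_num at hsm
  obtain ⟨S, O, hO, N, ht, hcore, z, hz⟩ := exists_image tab known hn hr (fun s hs hsm => hiso s hs (hrm s hs hsm))
    ok17_12 hR hrR hy hym
  have hsq : ¬ 17 ^ 2 ∣ Nat.card T := by rw [hn]; exact S.sq
  have hne : Nat.card T ≠ 17 := by rw [hn]; decide
  obtain ⟨i1, i2⟩ := index_dvd_E hiso hsq hne ht
  rw [hn] at i1 i2
  have hE : E n 17 = 8 := by decide
  rw [hE] at i1 i2
  have hN := ht.normal
  have hmQ : 12 ∣ Nat.card N * N.index := by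
    rw [Subgroup.card_mul_index, ← hz]
    exact _root_.orderOf_dvd_natCard _
  by_cases hc : ∀ a b : N, a * b = b * a
  · have h5 := i1 hc
    rw [ht.card_of_comm hc] at hmQ
    have h6 := ((by norm_num : Nat.Coprime 12 17).dvd_of_dvd_mul_left hmQ).trans h5
    norm_num at h6
  have h5 := i2 hc
  obtain ⟨g, hg, hreal, hgc⟩ := S.exists_surv ht hc [] (by simp)
  have h7 := surv17
  rw [List.all_eq_true] at h7
  have h6 := h7 g hg
  simp only [Bool.or_eq_true, decide_eq_true_eq] at h6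
  have hzi : z ^ N.index ∈ N := N.pow_index_mem z
  rcases h6 with rfl | rfl
  · -- `PSL₂(16)`
    have hc16 : Nat.card N = 4080 := hgc.trans (by decide +kernel)
    rw [hc16, show E 4080 17 = 2 by decide] at h5
    have hi4 : N.index ∣ 4 := Nat.dvd_of_mul_dvd_mul_left (k := 2) (by norm_num) h5
    by_cases hi2 : N.index ∣ 2
    · have hz2 : z ^ 2 ∈ N := by
        obtain ⟨c, hc'⟩ := hi2
        rw [hc', pow_mul]
        exact N.pow_mem hzi c
      refine no_of_mod (m := 6) (by norm_num : Nat.Prime 2) (by norm_num : 16 = 2 ^ 4) (by norm_num) (by decide) hreal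
        ⟨z ^ 2, hz2⟩ ?_
      rw [Subgroup.orderOf_mk, orderOf_pow_of_dvd (by norm_num) (by rw [hz]; norm_num), hz]
    · have hi : N.index = 4 := by
        have h8 : N.index ∈ Nat.divisors 4 := Nat.mem_divisors.2 ⟨hi4, by norm_num⟩
        rw [show Nat.divisors 4 = {1, 2, 4} by decide] at h8
        simp only [Finset.mem_insert, Finset.mem_singleton] at h8
        rcases h8 with h8 | h8 | h8
        · exact absurd (by rw [h8]; norm_num) hi2
        · exact absurd (by rw [h8]) hi2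
        · exact h8
      have hq : Nat.card (R ⧸ O) = 16320 := by
        rw [← Subgroup.card_mul_index N, hc16, hi]
      have hRc : Nat.card R = Nat.card O * 16320 := by
        rw [← hq, mul_comm]
        exact Subgroup.card_eq_card_quotient_mul_card_subgroup O
      have hO1 : Nat.card O = 1 := by
        have h8 : Nat.card O * 16320 ∣ 3078 * 16320 := by
          rw [← hRc]
          exact S.dvd_n
        have h9 : Nat.card O ∣ 3078 := Nat.dvd_of_mul_dvd_mul_right (by norm_num) h8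
        have h10 : ¬ 2 ∣ Nat.card O := hcore 2 Nat.prime_two (by norm_num)
        have h11 : ¬ 3 ∣ Nat.card O := hcore 3 Nat.prime_three (by norm_num)
        have h12 := card_core_mod ht (hiso.sub R)
        have h13 : ∀ m ∈ Nat.divisors 3078, ¬ 2 ∣ m → ¬ 3 ∣ m → m % 17 = 1 → m = 1 := by decide +kernel
        exact h13 _ (Nat.mem_divisors.2 ⟨h9, by norm_num⟩) h10 h11 h12
      have hOb : O = ⊥ := Subgroup.card_eq_one.1 hO1
      have h15 : (15 : ℕ) ∈ Set.range (orderOf : N → ℕ) := by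
        rw [psl2_ord (by norm_num : Nat.Prime 2) (by norm_num : 16 = 2 ^ 4) (by norm_num) hreal]
        right; left
        decide
      obtain ⟨w, hw⟩ := h15
      obtain ⟨t, ht'⟩ := QuotientGroup.mk'_surjective O (w : R ⧸ O)
      have hinj : Function.Injective (QuotientGroup.mk' O) := by
        rw [← MonoidHom.ker_eq_bot_iff, QuotientGroup.ker_mk', hOb]
      have hto : orderOf t = 15 := by
        rw [← orderOf_injective _ hinj, ht', Subgroup.orderOf_coe, hw]
      exact Cfsg.Agent.H305.SepJ3.not16320 h (K := R) (by rw [hRc, hO1, one_mul]) t.2 (by rw [Subgroup.orderOf_coe, hto])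
  · -- `PSL₂(17)`
    have hc17 : Nat.card N = 2448 := hgc.trans (by decide +kernel)
    rw [hc17, show E 2448 17 = 8 by decide] at h5
    have hi : N.index = 1 := Nat.dvd_one.1 (Nat.dvd_of_mul_dvd_mul_left (k := 8) (by norm_num) h5)
    rw [hi, pow_one] at hzi
    refine no_of_mod (m := 12) (by norm_num : Nat.Prime 17) (by norm_num : 17 = 17 ^ 1) (by norm_num) (by decide) hreal
      ⟨z, hzi⟩ ?_
    rw [Subgroup.orderOf_mk, hz]

theorem noTwo_j3 (tab : OrderTable.{u}) (known : Known.{u}) (h : Spor.IsoJ3 T) : NoTwo T := by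
  have hN := card h
  have p17 : Nat.Prime 17 := by norm_num
  have p19 : Nat.Prime 19 := by norm_num
  refine noTwo_of_orders (a := 19) (b := 17) (c := 12) (exists_of_prime_dvd p19 (by rw [hN]; decide))
    (exists_of_prime_dvd p17 (by rw [hN]; decide)) (exists_ord h) ?_ (oinc_seventeen tab known h) ?_
  · exact oinc_of_primes tab known hN p19 p17 (isol19 h 17 p17 (by norm_num)) chk19_17
  · refine oinc_of_chkI tab known [.psl 2 19] hN p19 (isol19 h) chk19_12 ?_
    intro g hg X _ _ hX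
    simp only [List.mem_singleton] at hg
    subst hg
    exact no_of_mod (m := 12) (by norm_num : Nat.Prime 19) (by norm_num : 19 = 19 ^ 1) (by norm_num) (by decide) hX

end

end Cfsg.Agent.H348.Cov.JThree
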